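import Cfsg.Agent.GL23.Arith

/-! Arithmetic for involution centralizers with `C / O(C) ≅ GL₂(3)` (helper2): a nonprincipal character of
degree `< 16` occurs in the support (`arith`). -/

set_option autoImplicit false

namespace Cfsg.Agent.W3

open Finset Cfsg.Agent.GL23

theorem dio {g w : ℕ} (w0 : w ≠ 0) {m k n p D : ℤ} (m0 : m ≠ 0) (k0 : k ≠ 0) (n0 : n ≠ 0) (p0 : p ≠ 0) (D0 : D ≠ 0)
    (h5 : 1 + m + n = 0) (h7 : m + k + p = 0) (hD : 1 + D + m + k = 0)
    (e1 : (g : ℚ) * (1 + 16 / m + 9 / n) = 9216 * w) (e2 : (g : ℚ) * (16 / m + 1 / k + 9 / p) = 9216 * w)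
    (e3 : (g : ℚ) * (1 + 4 / D + 16 / m + 1 / k) = 13824 * w) (hg : g % 32 = 16) :
    m = 12 ∨ D = 10 := by
  have w0' : (w : ℚ) ≠ 0 := by exact_mod_cast w0
  have g0 : (g : ℚ) ≠ 0 := by
    rintro h; rw [h, zero_mul] at e1; exact mul_ne_zero (by norm_num) w0' e1.symm
  have m0' : (m : ℚ) ≠ 0 := by exact_mod_cast m0
  have k0' : (k : ℚ) ≠ 0 := by exact_mod_cast k0
  have n0' : (n : ℚ) ≠ 0 := by exact_mod_cast n0
  have p0' : (p : ℚ) ≠ 0 := by exact_mod_cast p0
  have D0' : (D : ℚ) ≠ 0 := by exact_mod_cast D0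
  have f2 := mul_left_cancel₀ g0 (e1.trans e2.symm)
  have f3 : 3 * (1 + 16 / (m : ℚ) + 9 / n) = 2 * (1 + 4 / D + 16 / m + 1 / k) :=
    mul_left_cancel₀ g0 (by linear_combination 3 * e1 - 2 * e3)
  field_simp at e1 f2 f3
  norm_cast at e1 f2 f3
  obtain rfl : n = -1 - m := by omega
  obtain rfl : p = -m - k := by omega
  obtain rfl : D = -1 - m - k := by omega
  have a1 : (g : ℤ) * (m + 4) ^ 2 = 9216 * m * (m + 1) * w := by linear_combination -e1
  have a2 : m * ((k - 1) * (k * (m - 8) + m * (m + 1))) = 0 := by linear_combination f2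
  rcases mul_eq_zero.1 ((mul_eq_zero.1 a2).resolve_left m0) with h | h
  · obtain rfl : k = 1 := by omega
    have a3 : (m + 4) ^ 2 * (m - 2) = 0 := by linear_combination -f3
    rcases mul_eq_zero.1 a3 with h | h
    · obtain rfl : m = -4 := by have := pow_eq_zero_iff (two_ne_zero) |>.1 h; omega
      omega
    · obtain rfl : m = 2 := by omega
      omega
  · have a3 : (m - 8) ∣ 72 := ⟨-(k + m + 9), by linear_combination h⟩
    have a4 := Int.le_of_dvd (by norm_num) a3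
    have a5 := Int.le_of_dvd (by norm_num) (neg_dvd.2 a3)
    have a6 : -64 ≤ m := by omega
    have a7 : m ≤ 80 := by omega
    clear f2 f3 e1 a2 a3 m0' n0' p0' D0' k0' g0 w0'
    interval_cases m <;> omega

variable {I : Type*} [Fintype I] [DecidableEq I]

set_option maxHeartbeats 1600000 in
theorem arith {o : I} {d a b c c' z x : I → ℤ} (hd : ∀ i, 0 < d i) (d1 : d o = 1) (a1 : a o = 1) (b1 : b o = 0)
    (c1 : c o = 0) (c1' : c' o = 0) (z1 : z o = 1) (hx : ∀ i, x i = 3 * (a i + b i) - 2 * z i)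
    (aa : ∑ i, a i * a i = 3) (bb : ∑ i, b i * b i = 3) (ab : ∑ i, b i * a i = 1)
    (cc : ∑ i, c i * c i = 2) (cc' : ∑ i, c' i * c' i = 2) (cd : ∑ i, c' i * c i = 1)
    (ac : ∑ i, a i * c i = 0) (ac' : ∑ i, a i * c' i = 0) (bc : ∑ i, b i * c i = 0) (bc' : ∑ i, b i * c' i = 0)
    (zz : ∑ i, z i * z i = 6) (za : ∑ i, z i * a i = 2) (zb : ∑ i, z i * b i = 2)
    (zc : ∑ i, z i * c i = -2) (zc' : ∑ i, z i * c' i = -2)
    (da : ∑ i, d i * a i = 0) (db : ∑ i, d i * b i = 0) (dc : ∑ i, d i * c i = 0) (dc' : ∑ i, d i * c' i = 0)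
    (dz : ∑ i, d i * z i = 0) {g w : ℕ} (w0 : w ≠ 0) (e1 : (g : ℚ) * ∑ i, (x i : ℚ) * x i * a i / d i = 9216 * w)
    (e2 : (g : ℚ) * ∑ i, (x i : ℚ) * x i * b i / d i = 9216 * w)
    (e3 : (g : ℚ) * ∑ i, (x i : ℚ) * x i * z i / d i = 13824 * w) (hg : g % 32 = 16) :
    ∃ i, i ≠ o ∧ d i < 16 ∧ (a i ≠ 0 ∨ c i ≠ 0) := by
  obtain ⟨i1, i2, i3, s1, t1, s2, t2, t3, s3, d2, d3, sc, sc'⟩ := cpart hd cc cc' cd dc dc'
  rw [sc] at ac bc zc
  rw [sc'] at ac' bc' zc'
  have n4 : [o, i1, i2, i3].Nodup := by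
    simp only [List.nodup_cons, List.mem_cons, not_or, List.not_mem_nil, not_false_eq_true, and_true,
      List.nodup_nil]
    refine ⟨⟨?_, ?_, ?_⟩, ⟨?_, ?_⟩, ?_⟩ <;> intro e <;> subst e <;> omega
  have ua : a i1 = 0 ∧ a i2 = 0 ∧ a i3 = 0 := by
    have := le_sq a n4
    have e2 : a i2 = a i1 := by rcases s1 with e | e <;> rw [e] at ac <;> omega
    have e3 : a i3 = a i1 := by rcases s1 with e | e <;> rw [e] at ac' <;> omega
    simp only [List.map_cons, List.map_nil, List.sum_cons, List.sum_nil, aa, a1, e2, e3, and_self] at this ⊢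
    exact mul_self_eq_zero.1 (le_antisymm (by omega) (mul_self_nonneg _))
  have ub : b i1 = 0 ∧ b i2 = 0 ∧ b i3 = 0 := by
    have e2 : b i2 = b i1 := by rcases s1 with e | e <;> rw [e] at bc <;> omega
    have e3 : b i3 = b i1 := by rcases s1 with e | e <;> rw [e] at bc' <;> omega
    suffices b i1 = 0 by omega
    by_contra h
    have := zero_of b n4 (by
      have := mul_self_pos.2 h
      simp only [List.map_cons, List.map_nil, List.sum_cons, List.sum_nil, bb, b1, e2, e3]; omega)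
    rw [sum_list n4 fun k hk => by rw [this k hk, mul_zero]] at db
    simp only [List.map_cons, List.map_nil, List.sum_cons, List.sum_nil, b1, e2, e3, d2, d3] at db
    exact mul_ne_zero (hd i1).ne' h (by omega)
  obtain ⟨i4, i5, j6, j7, m8, a4, a5, b6, b7, b4, b5, za0, zb0⟩ := abpart n4 a1 b1 (by simp [ua]) (by simp [ub]) aa bb ab
  have n3 : [i5, i4, o].Nodup := m8.sublist (by simp)
  rw [sum_list n3 fun k hk => by simp [za0 k hk]] at za da e1
  have key : ∀ i6 i7, [i7, i6, i5, i4, o, i1, i2, i3].Nodup → (b i6 = 1 ∨ b i6 = -1) → (b i7 = 1 ∨ b i7 = -1) →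
      (∀ i ∉ [i7, i6, i4], b i = 0) → z i7 * b i7 ≤ z i6 * b i6 →
      a i4 * d i4 = 12 ∨ c i1 * d i1 = 10 := by
    intro i6 i7 n8 b6 b7 zb0 hle
    have n3 : [i7, i6, i4].Nodup := n8.sublist (by simp)
    rw [sum_list n3 fun k hk => by simp [zb0 k hk]] at zb db e2
    have hz := le_sq z n8
    have n8' := n8
    simp only [List.nodup_cons, List.mem_cons, not_or] at n8'
    have a6 := za0 i6 (by simp [n8'])
    have a7 := za0 i7 (by simp [n8'])
    simp only [List.map_cons, List.map_nil, List.sum_cons, List.sum_nil, zz, z1, a1, b4, d1] at hz za zb da db e1 e2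
    rw [← sgn_sq b7 (z i7), ← sgn_sq b6 (z i6), ← sgn_sq a5 (z i5), ← sgn_sq a4 (z i4), ← sgn_sq s1 (z i1),
      ← sgn_sq s1 (z i2), ← sgn_sq s1 (z i3)] at hz
    obtain ⟨v1, v2, v3, v4, v5, v6, v7⟩ := zcase hz zc zc' (by omega) (by omega) hle
    have v1 := sgn_eq s1 v1
    have v2 := sgn_eq s1 v2
    have v3 := sgn_eq s1 v3
    have v4 := sgn_eq a4 v4
    have v5 := sgn_eq a5 v5
    have v6 := sgn_eq b6 v6
    have v7 := sgn_eq b7 v7
    have n6 : [i6, i4, o, i1, i2, i3].Nodup := n8.sublist (by simp)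
    have zz0 := zero_of z n6 (by
      simp only [List.map_cons, List.map_nil, List.sum_cons, List.sum_nil, zz, z1, v1, v2, v3, v4, v6, sgn_sq s1,
        sgn_sq a4, sgn_sq b6]; norm_num)
    rw [sum_list n6 fun k hk => by simp [zz0 k hk]] at dz e3
    simp only [List.map_cons, List.map_nil, List.sum_cons, List.sum_nil, z1, v1, v2, v3, v4, v6, d1, d2, d3,
      one_mul] at dz e3
    have xo : x o = 1 := by rw [hx, a1, b1, z1]; rfl
    have s1' : -1 * c i1 = 1 ∨ -1 * c i1 = -1 := by omega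
    rw [term a4 4 (Or.inl (by rw [hx]; omega)), xo] at e1 e3
    rw [term a4 4 (Or.inl (by rw [hx]; omega)), term b6 1 (Or.inl (by rw [hx]; omega)),
      term b7 3 (Or.inl (by rw [hx]; omega))] at e2
    rw [term a5 3 (Or.inl (by rw [hx]; omega))] at e1
    rw [term b6 1 (Or.inl (by rw [hx]; omega)), term s1' 2 (Or.inr (by rw [hx]; omega)),
      term s1 2 (x := x i2) (Or.inr (by rw [hx]; omega)), term s1 2 (x := x i3) (Or.inr (by rw [hx]; omega))] at e3
    have nz : ∀ {s : ℤ} i, s = 1 ∨ s = -1 → s * d i ≠ 0 := fun i h => mul_ne_zero (by omega) (hd i).ne'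
    refine dio w0 (nz i4 a4) (nz i6 b6) (nz i5 a5) (nz i7 b7) (nz i1 s1) (by linear_combination da)
      (by linear_combination db) (by linear_combination dz) ?_ ?_ ?_ hg
    · rw [← e1]; push_cast; ring
    · rw [← e2]; push_cast; ring
    · rw [← e3]; push_cast; ring
  have : a i4 * d i4 = 12 ∨ c i1 * d i1 = 10 := by
    rcases le_total (z j7 * b j7) (z j6 * b j6) with h | h
    · exact key j6 j7 m8 b6 b7 zb0 h
    · exact key j7 j6 ((List.Perm.swap _ _ _).nodup_iff.1 m8) b7 b6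
        (fun i hi => zb0 i fun h => hi ((List.Perm.swap _ _ _).mem_iff.1 h)) h
  simp only [List.nodup_cons, List.mem_cons, not_or] at n3 n4
  rcases this with h | h
  · have := hd i4
    exact ⟨i4, n3.2.1.1, by rcases a4 with e | e <;> rw [e] at h <;> omega, Or.inl (by omega)⟩
  · have := hd i1
    exact ⟨i1, Ne.symm n4.1.1, by rcases s1 with e | e <;> rw [e] at h <;> omega, Or.inr (by omega)⟩

end Cfsg.Agent.W3
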