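import Cfsg.Agent.W3.Small
import Cfsg.Agent.Block.Q8
import Cfsg.Agent.Char.Burnside
import Cfsg.Agent.GW.DihCent

/-! A simple group with one class of involutions and `C(z) / O ≅ GL₂(3)`, the noncentral involutions inverting `O`,
has `O = 1` (`QG.ker_eq_bot`; principal 2-block, helper2). -/

set_option autoImplicit false
set_option linter.unusedSectionVars false

namespace Cfsg.Agent.W3

open Cfsg Cfsg.Agent.Char Cfsg.Agent.Invol Cfsg.Agent.GW Cfsg.Agent.GL23 Finset Subgroup
open scoped ComplexConjugate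
open scoped _root_.Classical

variable {G : Type*} [Group G] [Fintype G]

theorem sum_sub (H : Subgroup G) [Fintype H] (F : G → ℂ) (h : ∀ g, g ∉ H → F g = 0) : ∑ g, F g = ∑ g : H, F g := by
  rw [← Finset.sum_subtype (univ.filter (· ∈ H)) (by simp) F]
  exact (Finset.sum_subset (subset_univ _) fun g _ hg => h g (by simpa using hg)).symm

theorem sum_irr_cnt (a b : G) : ∑ χ : IrrCharacter G, χ.1 a * conj (χ.1 b) =
    ∑ g : G, if g * b * g⁻¹ = a then (1 : ℂ) else 0 := by
  rw [Finset.sum_boole, ← card_subtype_eq_filter]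
  by_cases h : IsConj a b
  · rw [sum_irr_mul_conj_of_isConj h, card_conj_fiber h.symm, ← card_conj_fiber (IsConj.refl a)]
    obtain ⟨c, rfl⟩ := isConj_iff.1 h
    rw [card_conj_fiber (IsConj.refl a), ← card_conj_fiber (IsConj.refl (c * a * c⁻¹))]
    have e1 := card_centralizer_mul_card_isConj a
    have e2 := card_centralizer_mul_card_isConj (c * a * c⁻¹)
    rw [card_conj_fiber (IsConj.refl _)]
    have e3 : Nat.card {y : G // IsConj a y} = Nat.card {y : G // IsConj (c * a * c⁻¹) y} :=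
      Nat.card_congr (Equiv.subtypeEquivRight fun y => ⟨fun k => h.symm.trans k, fun k => h.trans k⟩)
    have e4 : 0 < Nat.card {y : G // IsConj a y} := by
      haveI : Nonempty {y : G // IsConj a y} := ⟨⟨a, IsConj.refl a⟩⟩
      exact Nat.card_pos
    rw [← e3, ← e1] at e2
    rw [Nat.eq_of_mul_eq_mul_right e4 e2]
  · rw [sum_irr_mul_conj_of_not_isConj h]
    haveI : IsEmpty {g : G // g * b * g⁻¹ = a} := ⟨fun g => h (isConj_iff.2 ⟨g.1, g.2⟩).symm⟩
    simp

section
variable {H : Type*} [Group H] [Fintype H] (π : H →* M)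

theorem sum_fiber [Fintype π.ker] (h : H) (f : H → ℂ) :
    ∑ c, (if π c = π h then f c else 0) = ∑ k : π.ker, f (h * k) := by
  rw [← Equiv.sum_comp (Equiv.mulLeft h), sum_sub π.ker _ fun g hg => if_neg fun e => hg (by
    simpa using e)]
  exact Finset.sum_congr rfl fun k _ => if_pos (by simp [show π k = 1 from k.2])

theorem sum_pi (hs : Function.Surjective π) (f : M → ℂ) :
    ∑ c, f (π c) = Nat.card π.ker * ∑ m, f m := by
  have : ∀ c, f (π c) = ∑ m, if π c = m then f m else 0 := fun c => by simp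
  simp only [this]
  rw [Finset.sum_comm, Finset.mul_sum]
  refine Finset.sum_congr rfl fun m _ => ?_
  obtain ⟨h, rfl⟩ := hs m
  rw [sum_fiber π h fun _ => f (π h)]
  simp [Nat.card_eq_fintype_card]

/-- the average over the fibres -/
noncomputable def av (θ : H → ℂ) (d : M) : ℂ := (Nat.card π.ker : ℂ)⁻¹ * ∑ c, if π c = d then θ c else 0

theorem ker_ne : (Nat.card π.ker : ℂ) ≠ 0 := Nat.cast_ne_zero.2 Nat.card_pos.ne'

theorem av_const (hs : Function.Surjective π) {θ : H → ℂ} {d : M} {a : ℂ} (h : ∀ c, π c = d → θ c = a) :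
    av π θ d = a := by
  obtain ⟨c, rfl⟩ := hs d
  have : ∀ k : π.ker, θ (c * k) = a := fun k => h (c * k) (by simp [show π k = 1 from k.2])
  rw [av, sum_fiber]
  simp only [this]
  simp only [Finset.sum_const, card_univ, nsmul_eq_mul, ← Nat.card_eq_fintype_card]
  exact inv_mul_cancel_left₀ (ker_ne π) a

theorem isCharacter_av (hs : Function.Surjective π) {θ : H → ℂ} (h : IsCharacter H θ) :
    IsCharacter M (av π θ) := by
  refine isCharacter_iff_classInner.2 ⟨fun d m => ?_, fun ξ hξ => ?_⟩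
  · obtain ⟨g, rfl⟩ := hs m
    rw [av, av, ← Equiv.sum_comp (MulAut.conj g).toEquiv]
    congr 1
    refine Finset.sum_congr rfl fun c _ => if_congr (by simp) (IsCharacter.isClassFunction h c g) rfl
  · obtain ⟨n, hn⟩ := h.exists_nat_classInner (IsCharacter.comp (IsIrrCharacter.isCharacter hξ) π)
    refine ⟨n, ?_⟩
    have hc : (Nat.card H : ℂ) = Nat.card M * Nat.card π.ker := by
      rw [← Nat.cast_mul, ← π.ker.index_mul_card, index_ker, MonoidHom.range_eq_top.2 hs, card_top]
    rw [← hn, classInner, classInner, hc, mul_inv, mul_assoc]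
    congr 1
    simp only [av, mul_assoc, ← Finset.mul_sum, Finset.sum_mul]
    congr 1
    rw [Finset.sum_comm]
    refine Finset.sum_congr rfl fun c _ => ?_
    simp

end

/-- the setting -/
structure QG (z : G) (π : centralizer ({z} : Set G) →* M) : Prop where
  ord : orderOf z = 2
  surj : Function.Surjective π
  odd : ¬ 2 ∣ Nat.card π.ker
  inv : ∀ c, Nc (π c) → c * c = 1
  one : ∀ a : G, orderOf a = 2 → IsConj z a

namespace QG
variable {z : G} {π : centralizer ({z} : Set G) →* M} (h : QG z π)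
include h

theorem eq_one {c : centralizer ({z} : Set G)} (h1 : π c = 1) {k : ℕ} (h2 : c ^ 2 ^ k = 1) : c = 1 := by
  have h3 : orderOf c ∣ Nat.card π.ker := orderOf_dvd_natCard π.ker h1
  exact orderOf_eq_one_iff.1 (Nat.eq_one_of_dvd_coprimes
    (((Nat.Prime.coprime_iff_not_dvd Nat.prime_two).2 h.odd).pow_left k) (orderOf_dvd_of_pow_eq_one h2) h3)

theorem pi_z : π ⟨z, Block.self_mem_centralizer z⟩ = t := by
  have key : ∀ d : M, d ≠ 1 → (∀ x, x * d = d * x) → d = t := by decide +kernel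
  refine key _ (fun e => ne_one_of h.ord (congrArg Subtype.val (h.eq_one e (k := 1)
    (Subtype.ext (by simpa [sq] using mul_self_of h.ord))))) fun x => ?_
  obtain ⟨y, rfl⟩ := h.surj x
  rw [← map_mul, ← map_mul]
  congr 1
  exact Subtype.ext (mem_centralizer_singleton.1 y.2)

theorem exists_pow {c : centralizer ({z} : Set G)} (hc : Dm (π c)) : ∃ n, (c : G) ^ n = z := by
  obtain ⟨k, hk⟩ : ∃ k, π c ^ k = t := by
    rcases hc with e | e | e | e
    exacts [⟨1, by simpa using e⟩, ⟨2, e⟩, ⟨3, e⟩, ⟨4, e⟩]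
  set y : centralizer ({z} : Set G) := ⟨z, Block.self_mem_centralizer z⟩ with hy
  have h1 : c ^ k * y⁻¹ ∈ π.ker := by
    rw [MonoidHom.mem_ker, map_mul, map_inv, map_pow, hk, h.pi_z, mul_inv_cancel]
  have h2 : (c ^ k * y⁻¹) ^ Nat.card π.ker = 1 :=
    orderOf_dvd_iff_pow_eq_one.1 (orderOf_dvd_natCard π.ker h1)
  have h3 : Commute (c ^ k) y⁻¹ := Subtype.ext
    (Commute.inv_right (mem_centralizer_singleton.1 (c ^ k).2)).eq
  rw [h3.mul_pow, inv_pow, mul_inv_eq_one, ← pow_mul] at h2
  refine ⟨k * Nat.card π.ker, ?_⟩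
  have h4 := congrArg Subtype.val h2
  obtain ⟨j, hj⟩ := Nat.odd_iff.2 (Nat.two_dvd_ne_zero.1 h.odd)
  rw [Subgroup.coe_pow, Subgroup.coe_pow] at h4
  rw [h4, hj, pow_succ, pow_mul, sq, mul_self_of h.ord, one_pow, one_mul]

theorem mem_of_conj {c c' : centralizer ({z} : Set G)} (hc : Dm (π c)) (hc' : Dm (π c')) {g : G}
    (e : g * c * g⁻¹ = c') : g ∈ centralizer ({z} : Set G) := by
  obtain ⟨n, hn⟩ := h.exists_pow hc
  obtain ⟨m, hm⟩ := h.exists_pow hc'
  have h1 : g * z * g⁻¹ = (c' : G) ^ n := by rw [← e, conj_pow, hn]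
  have h2 : (c' : G) ^ n ∈ zpowers (c' : G) := npow_mem_zpowers _ _
  have h3 : z ∈ zpowers (c' : G) := by
    have := npow_mem_zpowers (c' : G) m
    rwa [hm] at this
  have h4 : orderOf ((c' : G) ^ n) = 2 := by rw [← h1, Block.orderOf_conj', h.ord]
  rcases eq_of_cyclic (T := zpowers (c' : G)) inferInstance h3 h.ord h2 (mul_self_of h4) with e | e
  · exact absurd e (ne_one_of h4)
  · rw [e] at h1
    exact mem_centralizer_singleton.2 (mul_inv_eq_iff_eq_mul.1 h1)

variable (Mi : Ideal AlgInt) [Block.PMod 2 Mi]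

theorem principal : principalBlock Mi (centralizer ({z} : Set G)) =
    {ξ : IrrCharacter (centralizer ({z} : Set G)) | ∀ n ∈ π.ker, ξ.1 n = ξ.1 1} := by
  haveI : q8.Normal := ⟨show ∀ a ∈ q8, ∀ g : M, g * a * g⁻¹ ∈ q8 by decide +kernel⟩
  have h1 : principalBlock Mi M = Set.univ := Set.eq_univ_of_forall fun χ =>
    Block.sameBlock_of_centralizer_le (M := Mi) (p := 2) (P := q8) (hP := IsPGroup.of_card (n := 3) card_q8)
      (fun g hg => by
        have key : ∀ g : M, (∀ x ∈ q8, x * g = g * x) → g ∈ q8 := by decide +kernel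
        exact key g (mem_centralizer_iff.1 hg)) (irrOne M) χ
  rw [Block.principalBlock_eq_image_infl h.surj h.odd, h1, Set.image_univ]
  ext ξ
  exact Block.mem_range_infl h.surj

theorem part {θ : G → ℂ} (hθ : IsClassFunction G θ) {c : centralizer ({z} : Set G)} (hc : Dm (π c)) :
    blockPart (principalBlock Mi G) θ c = av π (fun k => θ k) (π c) := by
  haveI : Fact (Nat.Prime 2) := ⟨Nat.prime_two⟩
  obtain ⟨x, hx⟩ := Block.exists_isPPart 2 (c : G)
  obtain ⟨n, hn⟩ := h.exists_pow hc
  have hz : ∃ k : ℕ, orderOf z = 2 ^ k := ⟨1, h.ord⟩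
  have h1 : x ^ n = z := by
    obtain ⟨y, e, hxy, ⟨k, hk⟩, hy⟩ := hx
    refine Block.IsPPart.unique (p := 2) (g := z) ⟨y ^ n, by rw [← hxy.mul_pow, e, hn], hxy.pow_pow n n, ?_,
      fun k => hy (k.trans (orderOf_pow_dvd n))⟩ (Block.isPPart_self hz)
    obtain ⟨j, -, hj⟩ := (Nat.dvd_prime_pow Nat.prime_two).1 (hk ▸ orderOf_pow_dvd (x := x) n)
    exact ⟨j, hj⟩
  have hC : centralizer ({x} : Set G) ≤ centralizer ({z} : Set G) := fun g hg =>
    mem_centralizer_singleton.2 (h1 ▸ (mem_centralizer_singleton.1 hg).pow_right n)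
  have hθ' : IsClassFunction (centralizer ({z} : Set G)) fun k => θ k := fun a b => hθ a b
  rw [Block.blockPart_section hθ (Block.IsPBlock.isBlockUnion Block.isPBlock_principalBlock)
    (fun _ => Block.inducedBlockDefined_centralizer hz) hx hC, Block.corr_principal_centralizer hz,
    h.principal Mi, Block.blockPart_apply hθ', Block.idem_ker, Block.ev_mul_comm hθ', mul_smul_comm, map_smul,
    Block.ev_single_mul_subSum, av, sum_fiber, smul_eq_mul]

theorem av_mem {χ : IrrCharacter G} (hχ : χ ∈ principalBlock Mi G) {c : centralizer ({z} : Set G)}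
    (hc : Dm (π c)) : av π (fun k => χ.1 k) (π c) = χ.1 c := by
  rw [← h.part Mi (IsIrrCharacter.isCharacter χ.2).isClassFunction hc, Block.blockPart_irr_of_mem hχ]

theorem av_notMem {χ : IrrCharacter G} (hχ : χ ∉ principalBlock Mi G) {d : M} (hd : Dm d) :
    av π (fun k => χ.1 k) d = 0 := by
  obtain ⟨c, rfl⟩ := h.surj d
  rw [← h.part Mi (IsIrrCharacter.isCharacter χ.2).isClassFunction hd, Block.blockPart_irr_of_notMem hχ]
  rfl

include Mi in
theorem gram {x y : M} (hx : Dm x) (hy : Dm y) :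
    ∑ χ : IrrCharacter G, av π (fun k => χ.1 k) x * conj (av π (fun k => χ.1 k) y) =
      ((univ.filter fun m => m * y * m⁻¹ = x).card : ℂ) := by
  obtain ⟨c', rfl⟩ := h.surj y
  have h1 : ∀ χ : IrrCharacter G, av π (fun k => χ.1 k) x * conj (av π (fun k => χ.1 k) (π c')) =
      (Nat.card π.ker : ℂ)⁻¹ * ∑ c, if π c = x then χ.1 c * conj (χ.1 c') else 0 := fun χ => by
    have : av π (fun k => χ.1 k) x * conj (av π (fun k => χ.1 k) (π c')) =
        av π (fun k => χ.1 k) x * conj (χ.1 c') := by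
      by_cases hχ : χ ∈ principalBlock Mi G
      · rw [h.av_mem Mi hχ hy]
      · rw [h.av_notMem Mi hχ hx, zero_mul, zero_mul]
    rw [this, av, mul_assoc, Finset.sum_mul]
    simp only [ite_mul, zero_mul]
  simp only [h1]
  rw [← Finset.mul_sum, Finset.sum_comm]
  have h2 : ∀ c : centralizer ({z} : Set G), (∑ χ : IrrCharacter G, if π c = x then χ.1 c * conj (χ.1 c') else 0) =
      ∑ g : G, if π c = x ∧ g * c' * g⁻¹ = c then (1 : ℂ) else 0 := fun c => by
    by_cases e : π c = x
    · simp only [e, if_true, true_and]; exact sum_irr_cnt _ _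
    · simp [e]
  simp only [h2]
  rw [Finset.sum_comm, sum_sub (centralizer ({z} : Set G)) _ fun g hg => Finset.sum_eq_zero fun c _ =>
    if_neg fun e => hg (h.mem_of_conj hy (e.1 ▸ hx) e.2)]
  have h3 : ∀ g : centralizer ({z} : Set G), (∑ c : centralizer ({z} : Set G),
      if π c = x ∧ (g : G) * c' * (g : G)⁻¹ = c then (1 : ℂ) else 0) =
      (fun m => if m * π c' * m⁻¹ = x then (1 : ℂ) else 0) (π g) := fun g => by
    rw [Finset.sum_eq_single (g * c' * g⁻¹) (fun c _ hc => if_neg fun e => hc (Subtype.ext e.2.symm)) (by simp)]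
    simp
  simp only [h3]
  rw [sum_pi π h.surj fun m => if m * π c' * m⁻¹ = x then (1 : ℂ) else 0, ← mul_assoc,
    inv_mul_cancel₀ (ker_ne π), one_mul, Finset.sum_boole]

theorem deg {x : M} (hx : Dm x) :
    ∑ χ : IrrCharacter G, χ.1 1 * av π (fun k => χ.1 k) x = 0 := by
  simp only [av, mul_left_comm _ (Nat.card π.ker : ℂ)⁻¹, ← Finset.mul_sum]
  simp only [Finset.mul_sum]
  rw [Finset.sum_comm]
  refine Finset.sum_eq_zero fun c _ => ?_
  rw [← Finset.mul_sum]
  by_cases e : π c = x
  · simp only [e, if_true]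
    rw [sum_irr_degree_mul, mul_zero]
    intro h1
    have : c = 1 := Subtype.ext h1
    rw [this, map_one] at e
    exact absurd (e ▸ hx) (by decide +kernel)
  · simp [e]

theorem card_C : Nat.card (centralizer ({z} : Set G)) = 48 * Nat.card π.ker := by
  rw [← π.ker.index_mul_card, index_ker, MonoidHom.range_eq_top.2 h.surj, card_top, card_M]

theorem invol_iff {x : M} (hx : Dm x) {y c : centralizer ({z} : Set G)} (hc : π c = x) :
    (IsConj z y ∧ IsConj z ((y : G)⁻¹ * c)) ↔ Nc (π y) ∧ Nc ((π y)⁻¹ * x) := by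
  have k1 : ∀ a : centralizer ({z} : Set G), Nc (π a) → IsConj z a := fun a ha =>
    h.one a (orderOf_two_iff.2 ⟨congrArg Subtype.val (h.inv a ha), fun e => ha.2.1 (by
      rw [show a = 1 from Subtype.ext e, map_one])⟩)
  have k2 : ∀ a : centralizer ({z} : Set G), IsConj z a → π a * π a = 1 ∧ π a ≠ 1 := fun a ha => by
    have := orderOf_two_iff.1 ((orderOf_of_isConj ha).symm.trans h.ord)
    have e : a * a = 1 := Subtype.ext this.1
    exact ⟨by rw [← map_mul, e, map_one], fun e' => this.2 (congrArg Subtype.val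
      (h.eq_one e' (k := 1) (by simpa [sq] using e)))⟩
  have e : (π y)⁻¹ * x = π (y⁻¹ * c) := by rw [map_mul, map_inv, hc]
  rw [e]
  refine ⟨fun k => ?_, fun k => ⟨k1 y k.1, k1 (y⁻¹ * c) k.2⟩⟩
  have key : ∀ a b : M, a * a = 1 ∧ a ≠ 1 → b * b = 1 ∧ b ≠ 1 → Dm (a * b) → Nc a ∧ Nc b := by decide +kernel
  exact key _ _ (k2 y k.1) (k2 (y⁻¹ * c) k.2) (by rw [← e, mul_inv_cancel_left]; exact hx)

include Mi in
theorem pairs {x : M} (hx : Dm x) :
    2304 * ((univ.filter fun a => Nc a ∧ Nc (a⁻¹ * x)).card : ℂ) * (Nat.card π.ker ^ 3 : ℕ) =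
      Nat.card G * ∑ χ : IrrCharacter G, av π (fun k => χ.1 k) t * av π (fun k => χ.1 k) t *
        conj (av π (fun k => χ.1 k) x) / χ.1 1 := by
  have h1 : ∀ χ : IrrCharacter G, av π (fun k => χ.1 k) t * av π (fun k => χ.1 k) t *
      conj (av π (fun k => χ.1 k) x) / χ.1 1 =
      (Nat.card π.ker : ℂ)⁻¹ * ∑ c, if π c = x then χ.1 z * χ.1 z * conj (χ.1 c) / χ.1 1 else 0 := fun χ => by
    have : av π (fun k => χ.1 k) t * av π (fun k => χ.1 k) t * conj (av π (fun k => χ.1 k) x) =
        χ.1 z * χ.1 z * conj (av π (fun k => χ.1 k) x) := by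
      by_cases hχ : χ ∈ principalBlock Mi G
      · rw [← h.pi_z, h.av_mem Mi hχ (by rw [h.pi_z]; exact Or.inl rfl)]
      · rw [h.av_notMem Mi hχ hx, map_zero, mul_zero, mul_zero]
    rw [this, av, map_mul, map_inv₀, map_natCast, map_sum, mul_left_comm, mul_div_assoc, Finset.mul_sum,
      Finset.sum_div]
    congr 1
    exact Finset.sum_congr rfl fun c _ => by split_ifs <;> simp
  simp only [h1]
  rw [← Finset.mul_sum, Finset.sum_comm, mul_left_comm, Finset.mul_sum]
  have h2 : ∀ c : centralizer ({z} : Set G), (Nat.card G : ℂ) * (∑ χ : IrrCharacter G,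
      if π c = x then χ.1 z * χ.1 z * conj (χ.1 c) / χ.1 1 else 0) = (48 * Nat.card π.ker) ^ 2 *
      ∑ y : centralizer ({z} : Set G), if π c = x then (if Nc (π y) ∧ Nc ((π y)⁻¹ * x) then (1 : ℂ) else 0) else 0 :=
    fun c => by
    by_cases e : π c = x
    · simp only [e, if_true]
      rw [← card_mul_conj_pairs, card_conj_pairs, h.card_C,
        card_subtype_eq_filter fun y : G => IsConj z y ∧ IsConj z (y⁻¹ * c), Nat.cast_mul,
        ← Finset.sum_boole fun y : G => IsConj z y ∧ IsConj z (y⁻¹ * c),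
        sum_sub (centralizer ({z} : Set G)) _ fun y hy => if_neg fun k => hy ?_]
      · simp only [h.invol_iff hx e]
        push_cast; ring
      · have h2 : ∀ y, IsConj z y → y * y = 1 := fun y hy =>
          mul_self_of (by rw [← orderOf_of_isConj hy, h.ord])
        have e1 := h2 y k.1
        have e2 := h2 _ k.2
        have e3 : y * c * y⁻¹ = (c : G)⁻¹ := by
          rw [inv_eq_of_mul_self e1] at e2 ⊢
          exact eq_inv_of_mul_eq_one_left (by rw [← e2]; group)
        obtain ⟨n, hn⟩ := h.exists_pow (c := c) (e ▸ hx)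
        have e4 := conj_pow_of_inverts e3 n
        rw [hn, inv_eq_of h.ord] at e4
        exact mem_centralizer_singleton.2 (mul_inv_eq_iff_eq_mul.1 e4)
    · simp [e]
  simp only [h2]
  rw [← Finset.mul_sum, sum_pi π h.surj fun m => ∑ y : centralizer ({z} : Set G),
    if m = x then (if Nc (π y) ∧ Nc ((π y)⁻¹ * x) then (1 : ℂ) else 0) else 0, Finset.sum_comm]
  simp only [Finset.sum_ite_eq', mem_univ, if_true]
  rw [sum_pi π h.surj fun m => if Nc m ∧ Nc (m⁻¹ * x) then (1 : ℂ) else 0, Finset.sum_boole]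
  have := ker_ne π
  push_cast
  field_simp
  ring

omit h in
theorem sum_char {H : Type*} [Group H] [Fintype H] {θ : H → ℂ} (hθ : IsCharacter H θ) :
    ∃ n : ℕ, ∑ s, θ s = Nat.card H * n := by
  obtain ⟨n, hn⟩ := hθ.exists_nat_classInner isCharacter_one
  refine ⟨n, ?_⟩
  rw [← hn, classInner, ← mul_assoc, mul_inv_cancel₀ (Nat.cast_ne_zero.2 Nat.card_pos.ne'), one_mul]
  simp

/-- the kernel is trivial -/
theorem ker_eq_bot [IsSimpleGroup G] (hN : Nat.card G % 32 = 16) : π.ker = ⊥ := by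
  haveI : Fact (Nat.Prime 2) := ⟨Nat.prime_two⟩
  obtain ⟨Mi, hMi⟩ := Block.exists_pMod 2
  choose d hd0 hd using fun χ : IrrCharacter G => IsIrrCharacter.exists_pos_apply_one χ.2
  have hc : ∀ χ : IrrCharacter G, IsCharacter (centralizer ({z} : Set G)) fun k => χ.1 k := fun χ =>
    (IsIrrCharacter.isCharacter χ.2).comp (centralizer ({z} : Set G)).subtype
  obtain ⟨χ, hχo, hχd, x, hx, hχx⟩ := small (fun χ : IrrCharacter G => av π fun k => χ.1 k)
    (fun χ => isCharacter_av π h.surj (hc χ)) (irrOne G) (fun x => av_const π h.surj fun _ _ => rfl) d hd0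
    (by have := hd (irrOne G); rw [irrOne_apply] at this; exact_mod_cast this.symm)
    (w0 := Nat.card π.ker ^ 3) (pow_ne_zero _ Nat.card_pos.ne') hN
    (fun x y hx hy => by convert h.gram Mi hx hy) (fun x hx => by simpa only [hd] using h.deg hx)
    (fun x hx => by simp only [← hd]; convert h.pairs Mi hx)
  have hB : χ ∈ principalBlock Mi G := by_contra fun k => hχx (h.av_notMem Mi k hx)
  obtain ⟨S⟩ : Nonempty (Sylow 2 (centralizer ({z} : Set G))) := inferInstance
  have hS : Nat.card S = 2 ^ 4 := Classical.card_sylow_of_card S (m := 3 * Nat.card π.ker)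
    (by rw [h.card_C]; ring) fun k => h.odd ((Nat.prime_two.dvd_mul.1 k).resolve_left (by norm_num))
  have key : ∀ m : M, m ^ 16 = 1 → m = 1 ∨ Dm m ∨ Nc m := by decide +kernel
  have h1 : ∀ s : S, s ≠ 1 → χ.1 (s : centralizer ({z} : Set G)) = av π (fun k => χ.1 k) (π s) := fun s hs => by
    have e : (s : centralizer ({z} : Set G)) ^ 2 ^ 4 = 1 := by
      rw [← Subgroup.coe_pow, ← hS, pow_card_eq_one', Subgroup.coe_one]
    rcases key (π s) (by rw [← map_pow]; exact (congrArg π e).trans (map_one π)) with k | k | k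
    · exact absurd (Subtype.ext (h.eq_one k e)) hs
    · exact (h.av_mem Mi hB k).symm
    · have k1 : ∀ a : centralizer ({z} : Set G), π a = π s → χ.1 a = χ.1 z := fun a ha => by
        obtain ⟨g, hg⟩ := isConj_iff.1 (h.one a (orderOf_two_iff.2 ⟨congrArg Subtype.val (h.inv a (ha ▸ k)),
          fun e => k.2.1 (by rw [← ha, show a = 1 from Subtype.ext e, map_one])⟩))
        rw [← hg]
        exact (IsIrrCharacter.isCharacter χ.2).isClassFunction z g
      rw [k1 s rfl, av_const π h.surj k1]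
  obtain ⟨a, ha⟩ := sum_char ((hc χ).comp (S : Subgroup _).subtype)
  obtain ⟨b, hb⟩ := sum_char ((isCharacter_av π h.surj (hc χ)).comp (π.comp (S : Subgroup _).subtype))
  obtain ⟨n, hn⟩ := (isCharacter_av π h.surj (hc χ)).exists_nat_apply_one
  rw [← Finset.add_sum_erase _ _ (mem_univ 1)] at ha hb
  rw [Finset.sum_congr rfl (f := fun s => χ.1 ((S : Subgroup (centralizer ({z} : Set G))).subtype s))
    (g := fun s => av π (fun k => χ.1 k) ((π.comp (S : Subgroup _).subtype) s))
    fun s hs => h1 s (Finset.ne_of_mem_erase hs), map_one, Subgroup.coe_one, hd] at ha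
  rw [map_one, hn] at hb
  have h3 : (d χ : ℂ) + 16 * b = n + 16 * a := by
    have : (Nat.card (S : Subgroup (centralizer ({z} : Set G))) : ℂ) = 16 := by
      exact_mod_cast hS
    rw [this] at ha hb
    linear_combination ha - hb
  have h4 : d χ + 16 * b = n + 16 * a := by exact_mod_cast h3
  have h5 : ∑ k : π.ker, χ.1 (k : centralizer ({z} : Set G)) = Nat.card π.ker * n := by
    rw [← hn, av, ← map_one π, sum_fiber, mul_inv_cancel_left₀ (ker_ne π)]
    simp
  have h6 : ∀ g : G, (χ.1 g).re ≤ d χ := fun g => by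
    have := (IsIrrCharacter.isCharacter χ.2).norm_apply_le_re g
    rw [hd, Complex.natCast_re] at this
    exact (Complex.re_le_norm _).trans this
  have h7 : ∑ k : π.ker, (χ.1 (k : centralizer ({z} : Set G))).re = ∑ _k : π.ker, (n : ℝ) := by
    rw [← Complex.re_sum, h5]
    simp [Nat.card_eq_fintype_card]
  have h8 : n ≤ d χ := by
    by_contra k
    have : (d χ : ℝ) < n := by exact_mod_cast not_le.1 k
    exact absurd h7 (Finset.sum_lt_sum_of_nonempty ⟨1, mem_univ _⟩ fun k _ => (h6 _).trans_lt this).ne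
  obtain rfl : n = d χ := by omega
  rw [eq_bot_iff]
  intro k hk
  have h9 := (Finset.sum_eq_sum_iff_of_le fun (k : π.ker) _ => h6 (k : centralizer ({z} : Set G))).1 h7 ⟨k, hk⟩
    (mem_univ _)
  have h10 : χ.1 k = χ.1 1 := by
    have e := (IsIrrCharacter.isCharacter χ.2).norm_apply_le_re k
    rw [hd, Complex.natCast_re] at e
    rw [hd]
    have e2 : (χ.1 k).im = 0 := by
      have e3 := Complex.sq_norm (χ.1 k)
      rw [Complex.normSq_apply] at e3
      simp only at h9
      have e4 := norm_nonneg (χ.1 k)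
      nlinarith [mul_self_nonneg (χ.1 k).im]
    exact Complex.ext (by simpa using h9) (by simpa using e2)
  have h11 := (IsIrrCharacter.isCharacter χ.2).mem_charKer.2 h10
  rw [IsIrrCharacter.charKer_eq_bot_of_simple χ.2 fun e => hχo (Subtype.ext e)] at h11
  exact Subtype.ext h11

end QG

end Cfsg.Agent.W3
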