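import Cfsg.Agent.W3.Arith
import Cfsg.Agent.GL23.Basic
import Cfsg.Agent.Block.PSolv

/-! Involution centralizers with `C / O(C) ≅ GL₂(3)` and `O(C)` inverted by the noncentral involutions (helper2):
`small` (linear algebra), `QG.ker_eq_bot` (in a simple group `O(C) = 1`; principal 2-block). -/

set_option autoImplicit false

namespace Cfsg.Agent.W3

open Cfsg Cfsg.Agent.Char Cfsg.Agent.Invol Cfsg.Agent.GW Cfsg.Agent.GL23 Finset Subgroup
open scoped ComplexConjugate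

/-- the elements with a power equal to the central involution -/
def Dm (x : M) : Prop := x = t ∨ x ^ 2 = t ∨ x ^ 3 = t ∨ x ^ 4 = t

instance instDecDm (x : M) : Decidable (Dm x) := inferInstanceAs (Decidable (_ ∨ _ ∨ _ ∨ _))

/-- noncentral involutions -/
def Nc (x : M) : Prop := x * x = 1 ∧ x ≠ 1 ∧ x ≠ t

instance instDecNc (x : M) : Decidable (Nc x) := inferInstanceAs (Decidable (_ ∧ _ ∧ _))

set_option maxHeartbeats 1600000 in
theorem small {I : Type*} [Fintype I] [DecidableEq I] (F : I → M → ℂ) (hF : ∀ i, IsCharacter M (F i)) (o : I)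
    (one : ∀ x, F o x = 1) (d : I → ℕ) (hd0 : ∀ i, 0 < d i) (hdo : d o = 1) {N w0 : ℕ} (hw : w0 ≠ 0)
    (hN : N % 32 = 16)
    (n : ∀ x y, Dm x → Dm y → ∑ i, F i x * conj (F i y) = ((univ.filter fun m => m * y * m⁻¹ = x).card : ℂ))
    (g : ∀ x, Dm x → ∑ i, (d i : ℂ) * F i x = 0)
    (p : ∀ x, Dm x → 2304 * ((univ.filter fun a => Nc a ∧ Nc (a⁻¹ * x)).card : ℂ) * w0 =
      N * ∑ i, F i t * F i t * conj (F i x) / d i) :
    ∃ i, i ≠ o ∧ d i < 16 ∧ ∃ x, Dm x ∧ F i x ≠ 0 := by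
  classical
  obtain ⟨θ, hθ⟩ : ∃ θ : ℂ, θ ^ 2 = -2 := IsAlgClosed.exists_pow_nat_eq _ (by norm_num)
  have hθ0 : θ ≠ 0 := by rintro rfl; norm_num at hθ
  choose a b c c' z k vt vq vz vr vr' vu m hm using fun i =>
    exists_values (MonoidHom.id M) (hF i) hθ
  simp only [MonoidHom.id_apply] at vt vq vz vr vr'
  have ir : ∀ i, conj (F i r) = F i r⁻¹ := fun i => (IsCharacter.apply_inv (hF i) r).symm
  have ir' : ∀ i, conj (F i r⁻¹) = F i r := fun i => by rw [← ir, Complex.conj_conj]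
  have pt : Dm t := by decide +kernel
  have pq : Dm q := by decide +kernel
  have pz : Dm (t * u) := by decide +kernel
  have pr : Dm r := by decide +kernel
  have pr' : Dm r⁻¹ := by decide +kernel
  have key : (∀ x, Dm x → ∀ i, F i x = 0 → True) := fun _ _ _ _ => trivial
  have fin : ∀ i, (∀ x, Dm x → F i x = 0) → a i = 0 ∧ c i = 0 := fun i h => by
    have h1 := vt i; have h2 := vq i; have h3 := vz i; have h4 := vr i; have h5 := vr' i
    rw [h _ pt] at h1; rw [h _ pq] at h2; rw [h _ pz] at h3; rw [h _ pr] at h4; rw [h _ pr'] at h5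
    have h6 : ((a i - b i : ℤ) : ℂ) = 0 := by linear_combination -h4 / 2 - h5 / 2
    have h7 : ((c' i - c i : ℤ) : ℂ) = 0 :=
      (mul_eq_zero.1 (by linear_combination h4 / 2 - h5 / 2)).resolve_right hθ0
    norm_cast at h1 h2 h3 h6 h7
    omega
  have tt := n _ _ pt pt
  have qq := n _ _ pq pq
  have zz := n _ _ pz pz
  have rr := n _ _ pr pr
  have tq := n _ _ pt pq
  have tz := n _ _ pt pz
  have tr := n _ _ pt pr
  have tr' := n _ _ pt pr'
  have qz := n _ _ pq pz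
  have qr := n _ _ pq pr
  have qr' := n _ _ pq pr'
  have zr := n _ _ pz pr
  have zr' := n _ _ pz pr'
  have rr' := n _ _ pr pr'
  have r'r := n _ _ pr' pr
  have dt := g _ pt
  have dq := g _ pq
  have dz := g _ pz
  have dr := g _ pr
  have dr' := g _ pr'
  have st := p _ pt
  have sz := p _ pz
  have sr := p _ pr
  have sr' := p _ pr'
  rw [show Finset.card _ = 12 by decide +kernel] at st
  rw [show Finset.card _ = 6 by decide +kernel] at sz zz
  rw [show Finset.card _ = 0 by decide +kernel, Nat.cast_zero] at sr sr' tq tz tr tr' qz qr qr' zr zr' rr' r'r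
  rw [show Finset.card _ = 48 by decide +kernel] at tt
  rw [show Finset.card _ = 8 by decide +kernel] at qq rr
  simp only [ir, ir'] at rr tr tr' qr qr' zr zr' rr' r'r sr sr'
  obtain ⟨x, hx⟩ : ∃ x, x = (3 : ℤ) • (a + b) - (2 : ℤ) • z := ⟨_, rfl⟩
  obtain ⟨y, hy⟩ : ∃ y, y = (2 : ℤ) • (c + c') - (a + b) + (2 : ℤ) • z := ⟨_, rfl⟩
  obtain ⟨v, hv⟩ : ∃ v, v = a - b := ⟨_, rfl⟩
  obtain ⟨e, he⟩ : ∃ e, e = c' - c := ⟨_, rfl⟩
  have hx' : ∀ i, x i = 3 * (a i + b i) - 2 * z i := fun i => by simp [hx, mul_add]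
  have hy' : ∀ i, y i = 2 * (c i + c' i) - (a i + b i) + 2 * z i := fun i => by simp [hy, mul_add]
  have hv' : ∀ i, v i = a i - b i := fun i => by simp [hv]
  have he' : ∀ i, e i = c' i - c i := fun i => by simp [he]
  simp only [← hx', ← hy', ← hv', ← he'] at vt vq vr vr'
  simp only [vt, vq, vz, vr, vr', map_intCast] at tt qq zz rr tq tz tr tr' qz qr qr' zr zr' rr' r'r dt dq dz dr dr' st sz sr sr'
  push_cast at st sz sr sr' rr
  have tt : x ⬝ᵥ x = 48 := by rw [dotProduct]; exact_mod_cast tt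
  have qq : y ⬝ᵥ y = 8 := by rw [dotProduct]; exact_mod_cast qq
  have zz : z ⬝ᵥ z = 6 := by rw [dotProduct]; exact_mod_cast zz
  have tq : x ⬝ᵥ y = 0 := by exact_mod_cast tq
  have tz : x ⬝ᵥ z = 0 := by exact_mod_cast tz
  have qz : y ⬝ᵥ z = 0 := by exact_mod_cast qz
  have dt : (fun i => (d i : ℤ)) ⬝ᵥ x = 0 := by exact_mod_cast dt
  have dq : (fun i => (d i : ℤ)) ⬝ᵥ y = 0 := by exact_mod_cast dq
  have dz : (fun i => (d i : ℤ)) ⬝ᵥ z = 0 := by exact_mod_cast dz
  obtain ⟨tv, te⟩ := split_sum hθ0 tr tr'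
  obtain ⟨qv, qe⟩ := split_sum hθ0 qr qr'
  obtain ⟨zv, ze⟩ := split_sum hθ0 zr zr'
  obtain ⟨dv, de⟩ := split_sum hθ0 (f := fun i => (d i : ℤ)) dr' dr
  have ⟨vv, ee, ve⟩ : v ⬝ᵥ v = 4 ∧ e ⬝ᵥ e = 2 ∧ v ⬝ᵥ e = 0 := by
    have k1 : ∀ s s' : ℂ, ∑ i, ((v i : ℂ) + s * e i * θ) * (v i + s' * e i * θ) = ∑ i, (v i : ℂ) * v i +
        (s + s') * θ * ∑ i, (v i : ℂ) * e i - 2 * s * s' * ∑ i, (e i : ℂ) * e i := fun s s' => by
      rw [Finset.mul_sum, Finset.mul_sum, ← Finset.sum_add_distrib, ← Finset.sum_sub_distrib]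
      exact Finset.sum_congr rfl fun i _ => by linear_combination s * s' * (e i) ^ 2 * hθ
    have k2 := k1 (-1) 1
    have k3 := k1 (-1) (-1)
    have k4 := k1 1 1
    simp only [neg_mul, one_mul, ← sub_eq_add_neg, rr, rr', r'r] at k2 k3 k4
    have l1 : ∑ i, (v i : ℂ) * v i = 4 := by linear_combination -k2 / 2 - k3 / 4 - k4 / 4
    have l2 : ∑ i, (e i : ℂ) * e i = 2 := by linear_combination -k2 / 4 + k3 / 8 + k4 / 8
    have l3 : ∑ i, (v i : ℂ) * e i = 0 := (mul_eq_zero.1 (by linear_combination k3 / 4 - k4 / 4)).resolve_left hθ0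
    exact ⟨by exact_mod_cast l1, by exact_mod_cast l2, by exact_mod_cast l3⟩
  have o1 : x (o) = 1 := by exact_mod_cast (vt _).symm.trans (one _)
  have o2 : y (o) = 1 := by exact_mod_cast (vq _).symm.trans (one _)
  have o3 : z (o) = 1 := by exact_mod_cast (vz _).symm.trans (one _)
  have o4 : d (o) = 1 := hdo
  have o5 : v (o) = 1 := by
    have : (v (o) : ℂ) = 1 := by
      linear_combination -vr (o) / 2 - vr' (o) / 2 + one r / 2 + one r⁻¹ / 2
    exact_mod_cast this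
  have o6 : e (o) = 0 := by
    have : (e (o) : ℂ) = 0 := (mul_eq_zero.1 (by
      linear_combination vr (o) / 2 - vr' (o) / 2 - one r / 2 + one r⁻¹ / 2)).resolve_right hθ0
    exact_mod_cast this
  have kk : ∀ s : ℂ, ∀ w : I → ℤ, (∀ i, (6 : ℂ) * w i = x i + 2 * z i + 3 * s * v i) →
      (N : ℚ) * ∑ i, (x i : ℚ) * x i * w i / (d i : ℤ) = 9216 * w0 := fun s w hw => by
    have k1 : 6 * ∑ i, (x i : ℂ) * x i * w i / d i = ∑ i, (x i : ℂ) * x i * x i / d i +
        2 * ∑ i, (x i : ℂ) * x i * z i / d i + 3 / 2 * s * (∑ i, (x i : ℂ) * x i * (v i + e i * θ) / d i +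
        ∑ i, (x i : ℂ) * x i * (v i - e i * θ) / d i) := by
      simp only [Finset.mul_sum, ← Finset.sum_add_distrib]
      exact Finset.sum_congr rfl fun i _ => by linear_combination (x i : ℂ) * x i / d i * hw i
    have : (N : ℂ) * ∑ i, (x i : ℂ) * x i * w i / d i = 9216 * w0 := by
      linear_combination (N : ℂ) / 6 * k1 - st / 6 - sz / 3 - s / 4 * (sr + sr')
    exact_mod_cast this
  have e3 : (N : ℚ) * ∑ i, (x i : ℚ) * x i * z i / (d i : ℤ) = 13824 * w0 := by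
    have : (N : ℂ) * ∑ i, (x i : ℂ) * x i * z i / d i = 13824 * w0 := by linear_combination -sz
    exact_mod_cast this
  have e1 := kk 1 a fun i => by rw [hx', hv']; push_cast; ring
  have e2 := kk (-1) b fun i => by rw [hx', hv']; push_cast; ring
  rw [hx', hy', hv', he'] at *
  simp only [hx, hy, hv, he, add_dotProduct, sub_dotProduct, smul_dotProduct, dotProduct_add, dotProduct_sub,
    dotProduct_smul, smul_eq_mul, dotProduct_comm a b, dotProduct_comm c a, dotProduct_comm c' a,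
    dotProduct_comm a z, dotProduct_comm c b, dotProduct_comm c' b, dotProduct_comm b z, dotProduct_comm c c',
    dotProduct_comm c z, dotProduct_comm c' z] at tt qq tq tz qz dt dq tv te qv qe zv ze dv de vv ee ve
  obtain ⟨i, i1, i2, i3⟩ := arith (o := o) (d := fun i => (d i : ℤ)) (c := c) (c' := c') (fun i => by exact_mod_cast hd0 i)
    (by simp [o4]) (by omega) (by omega) (by omega) (by omega) o3 hx' (show a ⬝ᵥ a = _ by linarith)
    (show b ⬝ᵥ b = _ by linarith) (show b ⬝ᵥ a = _ by linarith) (show c ⬝ᵥ c = _ by linarith) (show c' ⬝ᵥ c' = _ by linarith)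
    (show c' ⬝ᵥ c = _ by linarith) (show a ⬝ᵥ c = _ by linarith) (show a ⬝ᵥ c' = _ by linarith) (show b ⬝ᵥ c = _ by linarith)
    (show b ⬝ᵥ c' = _ by linarith) zz (show z ⬝ᵥ a = _ by linarith) (show z ⬝ᵥ b = _ by linarith)
    (show z ⬝ᵥ c = _ by linarith) (show z ⬝ᵥ c' = _ by linarith) (show _ ⬝ᵥ a = _ by linarith) (show _ ⬝ᵥ b = _ by linarith)
    (show _ ⬝ᵥ c = _ by linarith) (show _ ⬝ᵥ c' = _ by linarith) dz hw e1 e2 e3 hN
  refine ⟨i, i1, by exact_mod_cast i2, ?_⟩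
  by_contra! h
  have := fin i h
  omega

end Cfsg.Agent.W3
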